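import Mathlib
import Cfsg.Agent.Lib.Helper2.PGroupFrattini

set_option autoImplicit false

/-! Abstract part of S3171 (helper30): a group of order 512 with a normal subgroup `A0` of order 64 on which
the elements outside act with small centralizers. -/

namespace Cfsg.Agent.Lib.Helper30.SylQ

variable {S : Type*} [Group S]

theorem card_inf_mul_relIndex (A0 X : Subgroup S) :
    Nat.card ↥(X ⊓ A0) * A0.relIndex X = Nat.card ↥X := by
  have h := (A0.subgroupOf X).card_mul_index
  have h2 : Nat.card ↥(A0.subgroupOf X) = Nat.card ↥(X ⊓ A0) := by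
    rw [inf_comm, ← Subgroup.inf_subgroupOf_right A0 X]
    exact Nat.card_congr (Subgroup.subgroupOfEquivOfLe inf_le_right).toEquiv
  rw [h2] at h
  exact h

theorem exists_two_of_relIndex [Finite S] (A0 X : Subgroup S) (h : 3 ≤ A0.relIndex X) :
    ∃ t1 ∈ X, ∃ t2 ∈ X, t1 ∉ A0 ∧ t2 ∉ A0 ∧ t1⁻¹ * t2 ∉ A0 := by
  classical
  have h1 : 2 < Nat.card (↥X ⧸ A0.subgroupOf X) := h
  haveI : Fintype (↥X ⧸ A0.subgroupOf X) := Fintype.ofFinite _
  rw [Nat.card_eq_fintype_card, Fintype.two_lt_card_iff] at h1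
  obtain ⟨a, b, c, hab, hac, hbc⟩ := h1
  induction a using QuotientGroup.induction_on with | _ a => ?_
  induction b using QuotientGroup.induction_on with | _ b => ?_
  induction c using QuotientGroup.induction_on with | _ c => ?_
  rw [Ne, QuotientGroup.eq, Subgroup.mem_subgroupOf] at hab hac hbc
  refine ⟨(a⁻¹ * b : ↥X), (a⁻¹ * b : ↥X).2, (a⁻¹ * c : ↥X), (a⁻¹ * c : ↥X).2, hab, hac, ?_⟩
  intro h
  apply hbc
  have : ((b⁻¹ * c : ↥X) : S) = ((a⁻¹ * b : ↥X) : S)⁻¹ * ((a⁻¹ * c : ↥X) : S) := by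
    push_cast
    group
  rw [this]
  exact h

theorem main_abs [Finite S] (hS : Nat.card S = 512) (A0 : Subgroup S) [hN : A0.Normal]
    (hA0 : Nat.card ↥A0 = 64)
    (F1 : ∀ t, t ∉ A0 → Nat.card ↥(A0 ⊓ Subgroup.centralizer {t}) ≤ 16)
    (F2 : ∀ t1 t2, t1 ∉ A0 → t2 ∉ A0 → t1⁻¹ * t2 ∉ A0 →
      Nat.card ↥(A0 ⊓ Subgroup.centralizer {t1, t2}) ≤ 8)
    (F3 : ∃ x y : S, (y * x)⁻¹ * (x * y) ∉ A0) :
    (∀ M : Subgroup S, IsCoatom M → Nat.card ↥(Subgroup.center ↥M) ≤ 8) ∧
      (∀ A : Subgroup S, IsMulCommutative ↥A → Nat.card ↥A = 64 → A = A0) := by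
  have hidx : A0.index = 8 := by
    have := A0.card_mul_index
    rw [hA0, hS] at this
    omega
  have hr : ∀ X : Subgroup S, A0.relIndex X ∣ 8 := fun X => hidx ▸ Subgroup.relIndex_dvd_index_of_normal A0 X
  have hr8 : ∀ X : Subgroup S, A0.relIndex X ≤ 8 := fun X => Nat.le_of_dvd (by norm_num) (hr X)
  constructor
  · intro M hM
    haveI : Fact (Nat.Prime 2) := ⟨Nat.prime_two⟩
    have hP : IsPGroup 2 S := IsPGroup.of_card (n := 9) (by rw [hS]; norm_num)
    obtain ⟨-, hi⟩ := Cfsg.Agent.Lib.Helper2.isCoatom_normal_index hP hM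
    have hcM : Nat.card ↥M = 256 := by
      have := M.card_mul_index
      rw [hi, hS] at this
      omega
    have h1 := card_inf_mul_relIndex A0 M
    rw [hcM] at h1
    have h2 : Nat.card ↥(M ⊓ A0) ≤ 64 := hA0 ▸ Subgroup.card_le_of_le inf_le_right
    have h3 := hr8 M
    have h4 : 32 ≤ Nat.card ↥(M ⊓ A0) := by nlinarith
    have h5 : 3 ≤ A0.relIndex M := by nlinarith
    obtain ⟨t1, ht1, t2, ht2, h6, h7, h8⟩ := exists_two_of_relIndex A0 M h5
    have hz : ∀ z : ↥(Subgroup.center ↥M), ((z : ↥M) : S) ∈ A0 ⊓ Subgroup.centralizer {t1, t2} := by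
      intro z
      have hzc := fun y => Subgroup.mem_center_iff.1 z.2 y
      constructor
      · by_contra hzA
        have h9 := F1 _ hzA
        have h10 : M ⊓ A0 ≤ A0 ⊓ Subgroup.centralizer {((z : ↥M) : S)} := by
          intro y hy
          refine Subgroup.mem_inf.2 ⟨hy.2, ?_⟩
          rw [Subgroup.mem_centralizer_iff]
          intro w hw
          rw [Set.mem_singleton_iff] at hw
          rw [hw]
          exact (congrArg (Subtype.val) (hzc ⟨y, hy.1⟩)).symm
        have := Subgroup.card_le_of_le h10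
        omega
      · show ((z : ↥M) : S) ∈ Subgroup.centralizer {t1, t2}
        rw [Subgroup.mem_centralizer_iff]
        intro w hw
        rcases hw with rfl | hw
        · exact congrArg (Subtype.val) (hzc ⟨w, ht1⟩)
        · rw [Set.mem_singleton_iff] at hw
          rw [hw]
          exact congrArg (Subtype.val) (hzc ⟨t2, ht2⟩)
    refine le_trans ?_ (F2 t1 t2 h6 h7 h8)
    apply Nat.card_le_card_of_injective (fun z : ↥(Subgroup.center ↥M) => (⟨((z : ↥M) : S), hz z⟩ : ↥(A0 ⊓ Subgroup.centralizer {t1, t2})))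
    intro a b hab
    have h11 : ((a : ↥M) : S) = ((b : ↥M) : S) := (Subtype.ext_iff.1 hab :)
    exact Subtype.ext (Subtype.ext h11)
  · intro A hAc hA
    have hcomm : ∀ x ∈ A, ∀ y ∈ A, x * y = y * x := by
      intro x hx y hy
      exact congrArg Subtype.val (hAc.is_comm.comm (⟨x, hx⟩ : ↥A) ⟨y, hy⟩)
    by_contra hne
    have hnle : ¬ A ≤ A0 := by
      intro hle
      exact hne (Subgroup.eq_of_le_of_card_ge hle (by rw [hA, hA0]))
    have h1 := card_inf_mul_relIndex A0 A
    rw [hA] at h1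
    have h3 := hr8 A
    obtain ⟨t, htA, htn⟩ := SetLike.not_le_iff_exists.1 hnle
    have h4 : Nat.card ↥(A ⊓ A0) ≤ 16 := by
      refine le_trans (Subgroup.card_le_of_le ?_) (F1 t htn)
      intro y hy
      refine Subgroup.mem_inf.2 ⟨hy.2, ?_⟩
      rw [Subgroup.mem_centralizer_iff]
      intro w hw
      rw [Set.mem_singleton_iff] at hw
      rw [hw]
      exact hcomm _ htA _ hy.1
    have h5 : 3 ≤ A0.relIndex A := by nlinarith
    obtain ⟨t1, ht1, t2, ht2, h6, h7, h8⟩ := exists_two_of_relIndex A0 A h5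
    have h9 : Nat.card ↥(A ⊓ A0) ≤ 8 := by
      refine le_trans (Subgroup.card_le_of_le ?_) (F2 t1 t2 h6 h7 h8)
      intro y hy
      refine Subgroup.mem_inf.2 ⟨hy.2, ?_⟩
      rw [Subgroup.mem_centralizer_iff]
      intro w hw
      rcases hw with rfl | hw
      · exact hcomm _ ht1 _ hy.1
      · rw [Set.mem_singleton_iff] at hw
        rw [hw]
        exact hcomm _ ht2 _ hy.1
    have h10 : A0.relIndex A = 8 := by nlinarith
    -- the quotient is commutative
    let f : ↥A →* S ⧸ A0 := (QuotientGroup.mk' A0).comp A.subtype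
    have hker : f.ker = A0.subgroupOf A := by
      ext x
      rw [MonoidHom.mem_ker, Subgroup.mem_subgroupOf]
      exact QuotientGroup.eq_one_iff _
    have hrange : f.range = ⊤ := by
      apply Subgroup.eq_top_of_card_eq
      rw [← Subgroup.index_ker, hker, ← Subgroup.index_eq_card, hidx]
      exact h10
    obtain ⟨x, y, hxy⟩ := F3
    apply hxy
    obtain ⟨a, ha⟩ := MonoidHom.range_eq_top.1 hrange (QuotientGroup.mk x)
    obtain ⟨b, hb⟩ := MonoidHom.range_eq_top.1 hrange (QuotientGroup.mk y)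
    rw [← QuotientGroup.eq]
    rw [QuotientGroup.mk_mul, QuotientGroup.mk_mul, ← ha, ← hb, ← map_mul, ← map_mul, hAc.is_comm.comm b a]

end Cfsg.Agent.Lib.Helper30.SylQ
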